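import Cfsg.Agent.Lib.PackMatGroup
set_option linter.all false

/-!
# Block triangular representations (helper94, for S5527)

`E + F = 1` orthogonal idempotents, `F X E = 0` for all `X = ρ g`.  `piH` is the diagonal part, its kernel `V` is abelian;
the value of a word at `v t` is an affine function of `v ∈ V`.
-/

set_option autoImplicit false

namespace Cfsg.Agent.BMx.Cov

open Subgroup Cfsg.Agent.Lib.PackMatGroup

/-- orthogonal idempotents -/
structure Idem {R : Type*} [Ring R] (E F : R) : Prop where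
  add : E + F = 1
  EE : E * E = E
  FF : F * F = F
  EF : E * F = 0
  FE : F * E = 0

section ring

variable {R : Type*} [Ring R] {E F : R}

theorem Idem.split (h : Idem E F) (X Y : R) : X * Y = X * E * Y + X * F * Y := by
  rw [← add_mul, ← mul_add, h.add, mul_one]

theorem Idem.tri_mul (h : Idem E F) {X Y : R} (hX : F * X * E = 0) (hY : F * Y * E = 0) : F * (X * Y) * E = 0 := by
  have e : F * (X * Y) * E = (F * X * E) * (Y * E) + (F * X) * (F * Y * E) := by
    rw [h.split X Y]
    noncomm_ring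
  rw [e, hX, hY, zero_mul, mul_zero, add_zero]

theorem Idem.beta_mul (h : Idem E F) {X Y : R} (hX : F * X * E = 0) (hY : F * Y * E = 0) :
    E * (X * Y) * E + F * (X * Y) * F = (E * X * E + F * X * F) * (E * Y * E + F * Y * F) := by
  have e1 : E * (X * Y) * E + F * (X * Y) * F =
      E * X * E * Y * E + (E * X) * (F * Y * E) + (F * X * E) * (Y * F) + F * X * F * Y * F := by
    rw [h.split X Y]
    noncomm_ring
  have e2 : (E * X * E + F * X * F) * (E * Y * E + F * Y * F) =
      E * X * (E * E) * Y * E + E * X * (E * F) * Y * F + F * X * (F * E) * Y * E + F * X * (F * F) * Y * F := by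
    noncomm_ring
  rw [e1, e2, hX, hY, h.EE, h.FF, h.EF, h.FE]
  noncomm_ring

theorem Idem.decomp (h : Idem E F) {X : R} (hX : F * X * E = 0) : X = (E * X * E + F * X * F) + E * X * F := by
  have e : X = (E + F) * X * (E + F) := by rw [h.add, one_mul, mul_one]
  have e2 : (E + F) * X * (E + F) = (E * X * E + F * X * F) + E * X * F + F * X * E := by noncomm_ring
  rw [e2, hX, add_zero] at e
  exact e

theorem Idem.beta_eq (h : Idem E F) {X B : R} (hX : F * X * E = 0) (h1 : B * E = X * E) (h2 : F * B = F * X)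
    (h3 : E * B * F = 0) : E * X * E + F * X * F = B := by
  have e : B = (E + F) * B * (E + F) := by rw [h.add, one_mul, mul_one]
  have e2 : (E + F) * B * (E + F) = E * (B * E) + E * B * F + (F * B) * E + (F * B) * F := by noncomm_ring
  rw [e2, h1, h2, h3, hX] at e
  rw [e]
  noncomm_ring

theorem pow_sq_zero {U : R} (h : U * U = 0) (c : ℕ) : (1 + U) ^ c = 1 + (c : R) * U := by
  induction c with
  | zero => simp
  | succ c ih =>
    have e : (1 + (c : R) * U) * (1 + U) = 1 + ((c : R) + 1) * U + (c : R) * (U * U) := by noncomm_ring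
    rw [pow_succ, ih, e, h, mul_zero, add_zero, Nat.cast_succ]

theorem Idem.map (h : Idem E F) (φ : R →+* R) : Idem (φ E) (φ F) :=
  ⟨by rw [← map_add, h.add, map_one], by rw [← map_mul, h.EE], by rw [← map_mul, h.FF], by rw [← map_mul, h.EF, map_zero],
    by rw [← map_mul, h.FE, map_zero]⟩

/-- conjugation -/
def cjH {P Q : R} (h1 : P * Q = 1) (h2 : Q * P = 1) : R →+* R where
  toFun x := Q * x * P
  map_one' := by rw [mul_one, h2]
  map_mul' a b := by
    have e : Q * a * P * (Q * b * P) = Q * a * (P * Q) * b * P := by noncomm_ring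
    rw [e, h1]
    noncomm_ring
  map_zero' := by rw [mul_zero, zero_mul]
  map_add' a b := by noncomm_ring

theorem cjH_apply {P Q : R} (h1 : P * Q = 1) (h2 : Q * P = 1) (x : R) : cjH h1 h2 x = Q * x * P := rfl

theorem cjH_inj {P Q : R} (h1 : P * Q = 1) (h2 : Q * P = 1) : Function.Injective (cjH h1 h2) := by
  intro a b h
  have e : ∀ x : R, P * (Q * x * P) * Q = x := fun x => by
    have e1 : P * (Q * x * P) * Q = (P * Q) * x * (P * Q) := by noncomm_ring
    rw [e1, h1, one_mul, mul_one]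
  rw [← e a, ← e b]
  exact congrArg (fun x => P * x * Q) h

end ring

section grp

variable {H : Type*} [Group H] {R : Type*} [Ring R] {E F : R}

/-- a triangular representation -/
structure Tri (ρ : H →* R) (E F : R) : Prop where
  idem : Idem E F
  inj : Function.Injective ρ
  tri : ∀ g, F * ρ g * E = 0

/-- a finite group is generated as a monoid -/
theorem closure_ind [Finite H] {S : Set H} {P : H → Prop} (h1 : P 1) (hs : ∀ g, P g → ∀ s ∈ S, P (g * s)) :
    ∀ g ∈ closure S, P g := by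
  have key : ∀ x ∈ closure S, ∀ g, P g → P (g * x) := by
    intro x hx
    induction hx using closure_induction with
    | mem x hx => exact fun g hg => hs g hg x hx
    | one => exact fun g hg => by rwa [mul_one]
    | mul x y _ _ ihx ihy => exact fun g hg => by rw [← mul_assoc]; exact ihy _ (ihx g hg)
    | inv x _ ih =>
      intro g hg
      have h2 : ∀ n : ℕ, P (g * x ^ n) := by
        intro n
        induction n with
        | zero => rwa [pow_zero, mul_one]
        | succ n ihn => rw [pow_succ, ← mul_assoc]; exact ih _ ihn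
      have h3 : x⁻¹ = x ^ (orderOf x - 1) := by
        have h4 := orderOf_pos x
        rw [eq_comm, ← mul_eq_one_iff_eq_inv, ← pow_succ, Nat.sub_add_cancel h4, pow_orderOf_eq_one]
      rw [h3]
      exact h2 _
  intro g hg
  have h5 := key g hg 1 h1
  rwa [one_mul] at h5

theorem tri_of_gen [Finite H] {ρ : H →* R} (h : Idem E F) {S : Set H} (hS : closure S = ⊤)
    (hs : ∀ s ∈ S, F * ρ s * E = 0) (g : H) : F * ρ g * E = 0 := by
  refine closure_ind (S := S) (P := fun g => F * ρ g * E = 0) ?_ ?_ g (by rw [hS]; exact mem_top g)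
  · rw [map_one, mul_one, h.FE]
  · intro g hg s hs'
    rw [map_mul]
    exact h.tri_mul hg (hs s hs')

variable {ρ : H →* R}

/-- the diagonal part -/
def Tri.piH (h : Tri ρ E F) : H →* R where
  toFun g := E * ρ g * E + F * ρ g * F
  map_one' := by rw [map_one, mul_one, mul_one, h.idem.EE, h.idem.FF, h.idem.add]
  map_mul' a b := by rw [map_mul, h.idem.beta_mul (h.tri a) (h.tri b)]

theorem Tri.piH_apply (h : Tri ρ E F) (g : H) : h.piH g = E * ρ g * E + F * ρ g * F := rfl

theorem Tri.mem_ker (h : Tri ρ E F) {g : H} : g ∈ h.piH.ker ↔ ρ g * E = E ∧ F * ρ g = F := by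
  rw [MonoidHom.mem_ker]
  constructor
  · intro h1
    have h2 := h.idem.decomp (h.tri g)
    rw [← h.piH_apply, h1] at h2
    constructor
    · rw [h2, add_mul, one_mul, mul_assoc _ F E, h.idem.FE, mul_zero, add_zero]
    · rw [h2, mul_add, mul_one, ← mul_assoc, ← mul_assoc, h.idem.FE, zero_mul, zero_mul, add_zero]
  · rintro ⟨h1, h2⟩
    rw [h.piH_apply, mul_assoc E, h1, h2, h.idem.EE, h.idem.FF, h.idem.add]

theorem Tri.comap {φ : R →+* R} (hφ : Function.Injective φ) (hi : Idem E F) (h : Tri (φ.toMonoidHom.comp ρ) (φ E) (φ F)) :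
    Tri ρ E F :=
  ⟨hi, fun _ _ h1 => h.inj (congrArg φ h1), fun g => hφ (by rw [map_mul, map_mul, map_zero]; exact h.tri g)⟩

theorem Tri.ker_comap {φ : R →+* R} (hφ : Function.Injective φ) (h0 : Tri ρ E F)
    (h : Tri (φ.toMonoidHom.comp ρ) (φ E) (φ F)) : h0.piH.ker = h.piH.ker := by
  ext g
  rw [h.mem_ker, h0.mem_ker, ← hφ.eq_iff, ← hφ.eq_iff (b := F), map_mul, map_mul]
  rfl

theorem Tri.UE (h : Tri ρ E F) {v : H} (hv : v ∈ h.piH.ker) : (ρ v - 1) * E = 0 := by
  rw [sub_mul, (h.mem_ker.1 hv).1, one_mul, sub_self]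

theorem Tri.FU (h : Tri ρ E F) {v : H} (hv : v ∈ h.piH.ker) : F * (ρ v - 1) = 0 := by
  rw [mul_sub, (h.mem_ker.1 hv).2, mul_one, sub_self]

theorem Tri.UU (h : Tri ρ E F) {u v : H} (hu : u ∈ h.piH.ker) (hv : v ∈ h.piH.ker) : (ρ u - 1) * (ρ v - 1) = 0 := by
  rw [h.idem.split, h.UE hu, zero_mul, zero_add, mul_assoc, h.FU hv, mul_zero]

theorem Tri.comm (h : Tri ρ E F) {u v : H} (hu : u ∈ h.piH.ker) (hv : v ∈ h.piH.ker) : u * v = v * u := by
  apply h.inj
  have e : ∀ a b : R, a * b = (a - 1) * (b - 1) + (a + b - 1) := fun a b => by noncomm_ring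
  rw [map_mul, map_mul, e, e (ρ v), h.UU hu hv, h.UU hv hu, add_comm (ρ u)]

theorem Tri.pow (h : Tri ρ E F) {v : H} (hv : v ∈ h.piH.ker) (c : ℕ) : ρ (v ^ c) = 1 + (c : R) * (ρ v - 1) := by
  rw [map_pow, ← pow_sq_zero (h.UU hv hv), add_sub_cancel]

theorem Tri.pow_char (h : Tri ρ E F) {v : H} (hv : v ∈ h.piH.ker) {p : ℕ} (hp : (p : R) = 0) : v ^ p = 1 := by
  apply h.inj
  rw [h.pow hv, hp, zero_mul, add_zero, map_one]

theorem Tri.conj (h : Tri ρ E F) (g : H) {u : H} (hu : u ∈ h.piH.ker) :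
    ρ (g * u * g⁻¹) = h.piH g * ρ u * h.piH g⁻¹ := by
  have h1 := h.idem.decomp (h.tri g)
  have h2 := h.idem.decomp (h.tri g⁻¹)
  rw [← h.piH_apply] at h1 h2
  have h3 : ρ g * (ρ u - 1) = h.piH g * (ρ u - 1) := by
    conv_lhs => rw [h1]
    rw [add_mul, mul_assoc _ F, h.FU hu, mul_zero, add_zero]
  have h4 : (ρ u - 1) * ρ g⁻¹ = (ρ u - 1) * h.piH g⁻¹ := by
    conv_lhs => rw [h2]
    rw [mul_add, ← mul_assoc, ← mul_assoc, h.UE hu, zero_mul, zero_mul, add_zero]
  have h5 : ρ g * ρ g⁻¹ = 1 := by rw [← map_mul, mul_inv_cancel, map_one]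
  have h6 : h.piH g * h.piH g⁻¹ = 1 := by rw [← map_mul, mul_inv_cancel, map_one]
  have e : ∀ a b c : R, a * b * c = a * (b - 1) * c + a * c := fun a b c => by noncomm_ring
  rw [map_mul, map_mul, e, e (h.piH g), h5, h6, h3, mul_assoc, h4, mul_assoc]

/-- the value of a word at `v t` is an affine function of `v` -/
theorem affine (V : Subgroup H) [hV : V.Normal] (hc : ∀ u ∈ V, ∀ v ∈ V, u * v = v * u) (t : H) (cs : List H) (w : List ℕ) :
    (∀ v ∈ V, evG (v * t :: cs) w * (evG (t :: cs) w)⁻¹ ∈ V) ∧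
      ∀ u ∈ V, ∀ v ∈ V, evG (u * v * t :: cs) w * (evG (t :: cs) w)⁻¹ =
        (evG (u * t :: cs) w * (evG (t :: cs) w)⁻¹) * (evG (v * t :: cs) w * (evG (t :: cs) w)⁻¹) := by
  induction w with
  | nil => simp [evG_nil]
  | cons i w ih =>
    obtain ⟨ih1, ih2⟩ := ih
    rcases i with _ | i
    · have e : ∀ x : H, evG (x * t :: cs) (0 :: w) * (evG (t :: cs) (0 :: w))⁻¹ =
          x * (t * (evG (x * t :: cs) w * (evG (t :: cs) w)⁻¹) * t⁻¹) := by
        intro x
        rw [evG_cons, evG_cons, List.getD_cons_zero, List.getD_cons_zero]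
        group
      refine ⟨fun v hv => ?_, fun u hu v hv => ?_⟩
      · rw [e]
        exact V.mul_mem hv (hV.conj_mem _ (ih1 v hv) t)
      · rw [e, e, e, ih2 u hu v hv]
        have h1 := hc v hv _ (hV.conj_mem _ (ih1 u hu) t)
        generalize evG (u * t :: cs) w * (evG (t :: cs) w)⁻¹ = a at h1 ⊢
        generalize evG (v * t :: cs) w * (evG (t :: cs) w)⁻¹ = b
        calc u * v * (t * (a * b) * t⁻¹) = u * (v * (t * a * t⁻¹)) * (t * b * t⁻¹) := by group
          _ = u * (t * a * t⁻¹ * v) * (t * b * t⁻¹) := by rw [h1]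
          _ = _ := by group
    · have e : ∀ x : H, evG (x :: cs) ((i + 1) :: w) * (evG (t :: cs) ((i + 1) :: w))⁻¹ =
          cs.getD i 1 * (evG (x :: cs) w * (evG (t :: cs) w)⁻¹) * (cs.getD i 1)⁻¹ := by
        intro x
        rw [evG_cons, evG_cons, List.getD_cons_succ, List.getD_cons_succ]
        group
      refine ⟨fun v hv => ?_, fun u hu v hv => ?_⟩
      · rw [e]
        exact hV.conj_mem _ (ih1 v hv) _
      · rw [e, e, e, ih2 u hu v hv]
        group

theorem affine' (V : Subgroup H) [V.Normal] (hc : ∀ u ∈ V, ∀ v ∈ V, u * v = v * u) (t : H) (cs : List H) (w : List ℕ)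
    {u v : H} (hu : u ∈ V) (hv : v ∈ V) :
    evG (u * v * t :: cs) w = (evG (u * t :: cs) w * (evG (t :: cs) w)⁻¹) * evG (v * t :: cs) w := by
  have h := (affine V hc t cs w).2 u hu v hv
  rw [← mul_assoc] at h
  exact mul_right_cancel h

theorem map_inv_eq {M : Type*} [Monoid M] (σ : H →* M) {g : H} {Y : M} (h : σ g * Y = 1) : σ g⁻¹ = Y := by
  calc σ g⁻¹ = σ g⁻¹ * (σ g * Y) := by rw [h, mul_one]
    _ = Y := by rw [← mul_assoc, ← map_mul, inv_mul_cancel, map_one, one_mul]

theorem map_inv_eq' {M : Type*} [Monoid M] (σ : H →* M) {g : H} {Y : M} (h : Y * σ g = 1) : σ g⁻¹ = Y := by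
  calc σ g⁻¹ = (Y * σ g) * σ g⁻¹ := by rw [h, one_mul]
    _ = Y := by rw [mul_assoc, ← map_mul, mul_inv_cancel, map_one, mul_one]

/-- the elements with image in the image of `A` -/
def sat {M : Type*} [Monoid M] (σ : H →* M) (A : Subgroup H) : Subgroup H where
  carrier := {g | ∃ a ∈ A, σ g = σ a}
  one_mem' := ⟨1, A.one_mem, rfl⟩
  mul_mem' := by
    rintro a b ⟨a', ha, ha'⟩ ⟨b', hb, hb'⟩
    exact ⟨a' * b', A.mul_mem ha hb, by rw [map_mul, map_mul, ha', hb']⟩
  inv_mem' := by
    rintro a ⟨a', ha, ha'⟩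
    exact ⟨a'⁻¹, A.inv_mem ha, map_inv_eq σ (by rw [ha', ← map_mul, mul_inv_cancel, map_one])⟩

theorem mem_sat {M : Type*} [Monoid M] {σ : H →* M} {A : Subgroup H} {g : H} : g ∈ sat σ A ↔ ∃ a ∈ A, σ g = σ a := Iff.rfl

theorem mem_norm_sat [Finite H] {M : Type*} [Monoid M] {σ : H →* M} {S : Set H} {g : H}
    (h : ∀ s ∈ S, g * s * g⁻¹ ∈ sat σ (closure S)) : g ∈ normalizer ((sat σ (closure S) : Subgroup H) : Set H) := by
  have h1 : closure S ≤ (sat σ (closure S)).comap (MulAut.conj g).toMonoidHom := by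
    rw [closure_le]
    exact h
  refine mem_normalizer_fintype ?_
  rintro x ⟨a, ha, hx⟩
  obtain ⟨a', ha', h2⟩ := h1 ha
  refine ⟨a', ha', ?_⟩
  rw [← h2]
  show σ (g * x * g⁻¹) = σ (g * a * g⁻¹)
  rw [map_mul, map_mul, map_mul, map_mul, hx]

end grp

end Cfsg.Agent.BMx.Cov
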