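import Cfsg.Agent.BMx.Bridge
import Cfsg.Agent.Prune
set_option linter.all false
prune_inst 0x7f00000000000000000000000000000000000000000000000000000000000000000000000000000000000000000000000000000000000000000000000000000000000000000000000000000000000000003fffffffffffffffffffffffffffbeffbdffffffff
open scoped Cfsg.Agent.FastGrp

/-!
# The fast evaluator on any short vector

`Sim x y c` : the number `x` stores the planes `y`, of squared length at most `c`.
-/

set_option autoImplicit false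

namespace Cfsg.Agent.BMx.FastV

open Cfsg.Agent.Lib.PermNet Cfsg.Agent.Monster.VecEngine Cfsg.Agent.Monster.VecSpace
  Cfsg.Agent.BabyM.Conc Cfsg.Agent.BabyM.WordsInst Cfsg.Agent.BMx.Fast Cfsg.Agent.BMx.Bridge

/-- the number `x` stores the planes `y` -/
structure Sim (x : ℕ) (y : Pl) (c : ℕ) : Prop where
  rep : Rep x (vec ℚ y)
  supp : ind ℚ U (vec ℚ y) = vec ℚ y
  len : wform ℚ U wt (vec ℚ y) (vec ℚ y) ≤ (c : ℚ)

theorem Sim.short {x c : ℕ} {y : Pl} (h : Sim x y c) (hc : c < 1073741824) : Short U wt (vec ℚ y) :=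
  ⟨h.supp, h.len.trans_lt (by exact_mod_cast hc)⟩

theorem step_sim {x c : ℕ} {y : Pl} (hx : Sim x y c) (hc : c < 1073741824) (l : Ltr) (k : ℕ → Bool)
    (h : step l x k = true) : ∃ x' z, Sim x' z c ∧ k x' = true ∧ ∀ K, run l.prog y K = K z := by
  obtain ⟨n, hn⟩ := step_eq l
  rw [hn] at h
  obtain ⟨x', hx', hk⟩ := runP_sound n l.prog (saf_prog l) (hx.short hc) hx.rep 0 k h
  obtain ⟨z, hz, hK⟩ := runP_sim n l.prog (saf_prog l) (sml_sound U_sml) (hx.short hc) hx.rep 0 k h
  have e2 : vec ℚ z = ext ℚ U (semU ℚ U l.prog (res ℚ U (vec ℚ y))) := by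
    rw [hz, ← sem_ext ℚ (good_prog l).pres, ext_res, hx.supp]
  refine ⟨x', z, ⟨hz ▸ hx', by rw [e2, ind_ext], ?_⟩, hk, hK⟩
  rw [e2, wform_eq, res_ext, dotW_semU ℚ two_ne_zero (good_prog l)]
  exact hx.len

/-- **The simulation.** -/
theorem Sim.run {x c : ℕ} {y : Pl} (hx : Sim x y c) (hc : c < 1073741824) {w : List Ltr} {k : ℕ → Bool}
    (h : runW w x k = true) : ∃ x' z, Sim x' z c ∧ k x' = true ∧ ∀ K, runL (w.map Ltr.prog) y K = K z := by
  induction w generalizing x y with
  | nil => exact ⟨x, y, hx, h, fun _ => rfl⟩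
  | cons l w ih =>
    have h' : step l x (fun t => runW w t k) = true := h
    obtain ⟨x', u, hu, hk, hK⟩ := step_sim hx hc l _ h'
    obtain ⟨x'', z, hz, hk', hL⟩ := ih hu hk
    exact ⟨x'', z, hz, hk', fun K => (hK fun t => runL (w.map Ltr.prog) t K).trans (hL K)⟩

/-! ### Reading -/

/-- the field of a lane -/
noncomputable def rdF (x l : ℕ) : ℕ := Nat.land (Nat.shiftRight x (Nat.mul 18 l)) 262143

theorem rdF_eq (x l : ℕ) : rdF x l = fld 18 x l := by
  show (x >>> (18 * l)) &&& (2 ^ 18 - 1) = _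
  rw [Nat.and_two_pow_sub_one_eq_mod, Nat.shiftRight_eq_div_pow]
  rfl

theorem Sim.val {x c : ℕ} {y : Pl} (h : Sim x y c) {l : ℕ} (hl : l < 6144) : val y l = (rdF x l : ℤ) - 131072 := by
  have h1 := h.rep l
  rw [if_pos hl, ← rdF_eq] at h1
  have h2 : ((rdF x l : ℕ) : ℚ) = (Monster.VecEngine.val y l : ℚ) + 131072 := h1
  have h3 : ((rdF x l : ℕ) : ℤ) = Monster.VecEngine.val y l + 131072 := by exact_mod_cast h2
  omega

theorem Sim.out {x c : ℕ} {y : Pl} (h : Sim x y c) {l : ℕ} (hl : ¬ U.testBit l = true) : vec ℚ y l = 0 := by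
  have h1 : (if U.testBit l = true then vec ℚ y l else 0) = vec ℚ y l := congrFun h.supp l
  rw [← h1, if_neg hl]

theorem Sim.eq {x c d : ℕ} {y z : Pl} (h : Sim x y c) (h' : Sim x z d) : vec ℚ y = vec ℚ z := by
  funext i
  by_cases hi : U.testBit i = true
  · have h1 := (h.rep i).symm.trans (h'.rep i)
    rw [if_pos (sml_sound U_sml i hi), if_pos (sml_sound U_sml i hi)] at h1
    exact add_right_cancel h1
  · rw [h.out hi, h'.out hi]

/-- two lanes differ -/
noncomputable def neL (x y l : ℕ) : Bool := not (Nat.beq (rdF x l) (rdF y l))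

theorem Sim.ne {x x' c d l : ℕ} {y z : Pl} (h : Sim x y c) (h' : Sim x' z d) (hl : U.testBit l = true)
    (hn : neL x x' l = true) : (!decide (Monster.VecEngine.val y l = Monster.VecEngine.val z l)) = true := by
  have h1 := ne_of_not_beq hn
  rw [h.val (sml_sound U_sml l hl), h'.val (sml_sound U_sml l hl), Bool.not_eq_true', decide_eq_false_iff_not]
  omega

/-! ### Differences -/

/-- `x - y` -/
noncomputable def subF (x y : ℕ) : ℕ := Nat.sub (Nat.add x (bi one)) y

theorem fld_bi (i : ℕ) : fld 18 (bi one) i = if i < 6144 then 131072 else 0 := by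
  unfold bi
  exact fld_mul_of one 131072 (by norm_num) fld_one i

theorem wt_pos (i : ℕ) : (0 : ℚ) ≤ (2 : ℚ) ^ (-(val wt i)) := by positivity

theorem le4_wt : le4 U wt = true := le4_of_saf (saf_prog .z)

theorem Sim.sub {x x' c : ℕ} {y z u : Pl} (h : Sim x y c) (h' : Sim x' z c) (hc : 4 * c < 1073741824)
    (hu : ∀ i, vec ℚ u i = vec ℚ y i - vec ℚ z i) : Sim (subF x x') u (4 * c) := by
  have hs : ind ℚ U (vec ℚ u) = vec ℚ u := funext fun i => by
    show (if U.testBit i = true then vec ℚ u i else 0) = _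
    split_ifs with hi
    · rfl
    · rw [hu, h.out hi, h'.out hi, sub_zero]
  have hl : wform ℚ U wt (vec ℚ u) (vec ℚ u) ≤ ((4 * c : ℕ) : ℚ) := by
    have h1 : wform ℚ U wt (vec ℚ u) (vec ℚ u) ≤
        2 * wform ℚ U wt (vec ℚ y) (vec ℚ y) + 2 * wform ℚ U wt (vec ℚ z) (vec ℚ z) := by
      unfold wform
      rw [Finset.mul_sum, Finset.mul_sum, ← Finset.sum_add_distrib]
      refine Finset.sum_le_sum fun i _ => ?_
      rw [hu]
      have h2 := mul_nonneg (wt_pos i.1) (mul_self_nonneg (vec ℚ y i.1 + vec ℚ z i.1))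
      linarith
    have h2 := h.len
    have h3 := h'.len
    push_cast
    linarith
  refine ⟨?_, hs, hl⟩
  have hb : Bd (vec ℚ u) := Short.bd ⟨hs, hl.trans_lt (by exact_mod_cast hc)⟩ le4_wt
  have key : ∀ i, (i < 6144 → fld 18 x' i < fld 18 x i + 131072 ∧ fld 18 x i < fld 18 x' i + 131072) ∧
      (¬ i < 6144 → fld 18 x i = 0 ∧ fld 18 x' i = 0) := fun i => by
    have h1 := h.rep i
    have h2 := h'.rep i
    have h3 := hb i
    rw [hu] at h3
    constructor
    · intro hi
      rw [if_pos hi] at h1 h2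
      have h4 : (fld 18 x' i : ℚ) < fld 18 x i + 131072 := by linarith
      have h5 : (fld 18 x i : ℚ) < fld 18 x' i + 131072 := by linarith
      exact ⟨by exact_mod_cast h4, by exact_mod_cast h5⟩
    · intro hi
      rw [if_neg hi] at h1 h2
      exact ⟨by exact_mod_cast h1, by exact_mod_cast h2⟩
  intro i
  show ((fld 18 (x + bi one - x') i : ℕ) : ℚ) = _
  rw [fld_add_sub h18 _ _ _ (fun j => if j < 6144 then fld 18 x j + 131072 - fld 18 x' j else 0)
    (fun j => by
      have := key j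
      split_ifs <;> omega)
    (fun j => by
      have := key j
      rw [fld_bi]
      split_ifs <;> omega)]
  by_cases hi : i < 6144
  · have h1 := h.rep i
    have h2 := h'.rep i
    rw [if_pos hi] at h1 h2
    rw [if_pos hi, if_pos hi, Nat.cast_sub (by have := key i; omega), Nat.cast_add, h1, h2, hu]
    push_cast
    ring
  · rw [if_neg hi, if_neg hi, Nat.cast_zero]

/-! ### The start -/

/-- the positive part -/
noncomputable def posF (y : Pl) : ℕ :=
  Pl.rec (motive := fun _ => ℕ) (fun _ => 0) (fun p _ ih => Nat.add (spr 99 0 p) (Nat.mul ih 2)) y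

/-- the negative part -/
noncomputable def negG (y : Pl) : ℕ :=
  Pl.rec (motive := fun _ => ℕ) (fun s => spr 99 0 s) (fun _ _ ih => Nat.mul ih 2) y

/-- a choice -/
noncomputable def sel (b : Bool) (n : ℕ) : ℕ := Bool.rec 100000 n b

/-- the bound, when all planes are on the lanes `< 6144` -/
noncomputable def dep (y : Pl) : ℕ :=
  Pl.rec (motive := fun _ => ℕ) (fun s => sel (sml s) 1) (fun p _ ih => sel (sml p) (Nat.mul ih 2)) y

theorem sel_le {b : Bool} {n : ℕ} (h : sel b n ≤ 65536) : b = true ∧ sel b n = n := by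
  cases b with
  | false => exact absurd (show 100000 ≤ 65536 from h) (by decide)
  | true => exact ⟨rfl, rfl⟩

theorem dep_sgn (s : ℕ) : dep (.sgn s) = sel (sml s) 1 := by
  delta dep
  exact Eq.refl _

theorem dep_cons (p : ℕ) (L : Pl) : dep (.cons p L) = sel (sml p) (Nat.mul (dep L) 2) := by
  delta dep
  exact Eq.refl _

theorem negG_sgn (s : ℕ) : negG (.sgn s) = spr 99 0 s := by
  delta negG
  exact Eq.refl _

theorem posF_cons (p : ℕ) (L : Pl) : posF (.cons p L) = spr 99 0 p + posF L * 2 := by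
  generalize h : spr 99 0 p = t
  delta posF
  show Nat.add (spr 99 0 p) _ = Nat.add t _
  rw [h]
  rfl

theorem parts {y : Pl} (h : dep y ≤ 65536) (i : ℕ) : fld 18 (posF y) i < dep y ∧ fld 18 (negG y) i ≤ dep y ∧
    val y i = (fld 18 (posF y) i : ℤ) - fld 18 (negG y) i ∧
    (¬ i < 6144 → fld 18 (posF y) i = 0 ∧ fld 18 (negG y) i = 0) := by
  induction y generalizing i with
  | sgn s =>
    rw [dep_sgn] at h ⊢
    obtain ⟨hs, e⟩ := sel_le h
    have h1 : fld 18 (negG (.sgn s)) i = if s.testBit i then 1 else 0 := by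
      rw [negG_sgn]
      exact sp_spr 99 0 (sml_sound hs) i
    have h2 : fld 18 (posF (.sgn s)) i = 0 := fld_zero 18 i
    have h3 := sml_sound hs i
    rw [e, h1, h2, val_sgn, bt]
    split_ifs with h4
    · exact ⟨Nat.one_pos, le_rfl, rfl, fun k => absurd (h3 h4) k⟩
    · exact ⟨Nat.one_pos, Nat.zero_le _, rfl, fun _ => ⟨rfl, rfl⟩⟩
  | cons p L ih =>
    rw [dep_cons] at h ⊢
    obtain ⟨hs, e⟩ := sel_le h
    rw [e, Nat.mul_eq] at h ⊢
    have ih' := ih (by omega)
    have h0 : ∀ j, fld 18 (spr 99 0 p) j = if p.testBit j then 1 else 0 := sp_spr 99 0 (sml_sound hs)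
    have h1 : ∀ j, fld 18 (posF L * 2) j = fld 18 (posF L) j * 2 :=
      fld_mul h18 _ _ fun j => by have := ih' j; omega
    have h2 : fld 18 (negG (.cons p L)) i = fld 18 (negG L) i * 2 :=
      fld_mul h18 (negG L) 2 (fun j => by have := ih' j; omega) i
    have h3 : fld 18 (posF (.cons p L)) i = fld 18 (spr 99 0 p) i + fld 18 (posF L * 2) i := by
      rw [posF_cons]
      exact fld_add h18 (spr 99 0 p) (posF L * 2) (fun j => by
        have := ih' j
        rw [h0, h1]
        split_ifs <;> omega) i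
    have h4 := sml_sound hs i
    have h5 := ih' i
    rw [h2, h3, h0, h1, val_cons, bt]
    split_ifs with h6
    · have := h4 h6
      omega
    · omega

/-- the number of a vector -/
noncomputable def ofPl (y : Pl) : ℕ := Nat.sub (Nat.add (bi one) (posF y)) (negG y)

theorem rep_ofPl {y : Pl} (h : dep y ≤ 65536) : Rep (ofPl y) (vec ℚ y) := by
  intro i
  show ((fld 18 (bi one + posF y - negG y) i : ℕ) : ℚ) = if i < 6144 then (val y i : ℚ) + 131072 else 0
  rw [fld_add_sub h18 _ _ _ (fun j => if j < 6144 then 131072 + fld 18 (posF y) j - fld 18 (negG y) j else 0)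
    (fun j => by
      have := parts h j
      split_ifs <;> omega)
    (fun j => by
      have := parts h j
      rw [fld_bi]
      split_ifs <;> omega)]
  split_ifs with hi
  · have h1 := parts h i
    have h2 : ((131072 + fld 18 (posF y) i - fld 18 (negG y) i : ℕ) : ℤ) = val y i + 131072 := by omega
    exact_mod_cast h2
  · exact Nat.cast_zero

theorem len_of_sum {y : Pl} {n : ℕ} (hn : n < 2 ^ 30)
    (h : Monster.PlaneArith.sumIs 13 30 n (Monster.PlaneArith.mul y y) = true) :
    wform ℚ U wt (vec ℚ y) (vec ℚ y) ≤ ((2 * n : ℕ) : ℚ) := by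
  have h1 := Monster.PlaneArith.sumIs_sound hn h
  have h2 : wform ℚ U wt (vec ℚ y) (vec ℚ y) = ∑ i ∈ Finset.range (2 ^ 13),
      if U.testBit i then (2 : ℚ) ^ (-(val wt i)) * ((val y i : ℚ) * (val y i : ℚ)) else 0 :=
    sum_lane U_lt (fun i => (2 : ℚ) ^ (-(val wt i)) * ((val y i : ℚ) * (val y i : ℚ)))
  have h3 : ∀ i, (if U.testBit i then (2 : ℚ) ^ (-(val wt i)) * ((val y i : ℚ) * (val y i : ℚ)) else 0) ≤
      2 * ((val (Monster.PlaneArith.mul y y) i : ℤ) : ℚ) := by
    intro i
    rw [Monster.PlaneArith.val_mul, Int.cast_mul]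
    have h4 := mul_self_nonneg (val y i : ℚ)
    split_ifs
    · refine mul_le_mul_of_nonneg_right ?_ h4
      have h5 : -(val wt i) ≤ 1 := neg_val_sgn_le _ i
      exact (zpow_le_zpow_right₀ (by norm_num) h5).trans (by norm_num)
    · exact mul_nonneg (by norm_num) h4
  have h6 := Finset.sum_le_sum (s := Finset.range (2 ^ 13)) fun i _ => h3 i
  rw [← h2, ← Finset.mul_sum, ← Int.cast_sum, h1] at h6
  push_cast at h6 ⊢
  exact h6

/-- the check of a start vector with the sum of squares `n` -/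
noncomputable def okV (y : Pl) (n : ℕ) : Bool :=
  and (eqP (msk U y) y) (and (Nat.ble (dep y) 65536) (and (Nat.blt n 536870912)
    (Monster.PlaneArith.sumIs 13 30 n (Monster.PlaneArith.mul y y))))

theorem sim_of_okV {y : Pl} {n : ℕ} (h : okV y n = true) : Sim (ofPl y) y (2 * n) ∧ 2 * n < 1073741824 := by
  unfold okV at h
  rw [Bool.and_eq_true, Bool.and_eq_true, Bool.and_eq_true] at h
  obtain ⟨h1, h2, h3, h4⟩ := h
  have h5 : n < 536870912 := Nat.blt_eq.mp h3
  refine ⟨⟨rep_ofPl (Nat.le_of_ble_eq_true h2), funext fun i => ?_, len_of_sum (by omega) h4⟩, by omega⟩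
  have h := val_msk U y i
  rw [eq_of_eqP h1] at h
  show (if U.testBit i = true then (val y i : ℚ) else 0) = (val y i : ℚ)
  split_ifs at h ⊢
  · rfl
  · exact_mod_cast h.symm

/-- a word fixes a vector -/
noncomputable def fixV (w : List Ltr) (y : Pl) (n : ℕ) : Bool :=
  and (okV y n) (runW w (ofPl y) fun x => Nat.beq x (ofPl y))

theorem fix_of_fixV {w : List Ltr} {y : Pl} {n : ℕ} (h : fixV w y n = true) : checkFix (w.map Ltr.prog) y = true := by
  obtain ⟨h1, h2⟩ := Bool.and_eq_true_iff.1 (show and _ _ = true from h)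
  obtain ⟨hs, hc⟩ := sim_of_okV h1
  obtain ⟨x, z, hz, hk, hK⟩ := hs.run hc h2
  rw [Nat.eq_of_beq_eq_true hk] at hz
  exact (hK _).trans (eqP_norm (hz.eq hs))

end Cfsg.Agent.BMx.FastV
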