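import Mathlib
set_option linter.all false

/-!
# Facts on `S₄` and `S₅` for the primary tests (helper77, for S5527)
-/

set_option autoImplicit false
set_option maxRecDepth 100000

namespace Cfsg.Agent.BMx.Prim

open Subgroup Equiv

/-- the facts used on `C(x) / ⟨x⟩` -/
structure Mod (S : Type) [Group S] (p : ℕ) : Prop where
  prime : p.Prime
  odd : Odd p
  fin : Finite S
  sq : ¬ p ^ 2 ∣ Nat.card S
  inn : ∀ α : S →* S, Function.Injective α → ∃ g : S, ∀ π, α π = g * π * g⁻¹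
  cent : ∀ c π : S, c ^ p = 1 → c ≠ 1 → c * π = π * c → π ∈ zpowers c

theorem inn_of {S : Type} [Group S] {c t : S} (hgen : closure {c, t} = ⊤) {P : S → Prop} {Q : S → S → Prop}
    (hP : ∀ α : S →* S, Function.Injective α → P (α c)) (hQ : ∀ α : S →* S, Function.Injective α → Q (α c) (α t))
    (h1 : ∀ d, P d → ∃ g, d = g * c * g⁻¹) (h2 : ∀ a, Q c a → ∃ g, c = g * c * g⁻¹ ∧ a = g * t * g⁻¹)
    (α : S →* S) (hα : Function.Injective α) : ∃ g : S, ∀ π, α π = g * π * g⁻¹ := by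
  obtain ⟨g, hg⟩ := h1 _ (hP α hα)
  let β : S →* S := (MulAut.conj g⁻¹).toMonoidHom.comp α
  have hβ : ∀ π, β π = g⁻¹ * α π * g := fun π => by
    show g⁻¹ * α π * g⁻¹⁻¹ = _
    rw [inv_inv]
  have hβc : β c = c := by rw [hβ, hg]; group
  have h3 := hQ β ((MulAut.conj g⁻¹).injective.comp hα)
  rw [hβc] at h3
  obtain ⟨k, hk1, hk2⟩ := h2 _ h3
  have h4 : β = (MulAut.conj k).toMonoidHom := by
    refine MonoidHom.eq_of_eqOn_dense hgen ?_
    rintro π (rfl | rfl)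
    · exact hβc.trans hk1
    · exact hk2
  refine ⟨g * k, fun π => ?_⟩
  have h5 : g⁻¹ * α π * g = k * π * k⁻¹ := (hβ π).symm.trans (DFunLike.congr_fun h4 π)
  calc α π = g * (g⁻¹ * α π * g) * g⁻¹ := by group
    _ = g * k * π * (g * k)⁻¹ := by rw [h5]; group

theorem gen_rot (n : ℕ) : closure {finRotate (n + 2), swap 0 1} = (⊤ : Subgroup (Perm (Fin (n + 2)))) := by
  have h := Perm.closure_cycle_adjacent_swap (isCycle_finRotate (n := n)) support_finRotate 0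
  rwa [finRotate_apply, zero_add] at h

/-! ### `S₅` -/

abbrev S5 : Type := Perm (Fin 5)

theorem conj5 : ∀ d : S5, d * d * d * d * d = 1 → d ≠ 1 → ∃ g : S5, d * g = g * finRotate 5 := by decide +kernel

theorem aut5 : ∀ a : S5, a * a = 1 → a ≠ 1 →
    a * finRotate 5 * a * finRotate 5 * a * finRotate 5 * a * finRotate 5 = 1 →
    a * finRotate 5 * a * finRotate 5 ≠ 1 →
    ∃ g : S5, finRotate 5 * g = g * finRotate 5 ∧ a * g = g * swap 0 1 := by decide +kernel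

theorem cent5 : ∀ π : S5, finRotate 5 * π = π * finRotate 5 → ∃ i < 5, π = finRotate 5 ^ i := by decide +kernel

theorem five0 : ∀ π : S5, π ≠ 1 → ∃ e ∈ [π * (finRotate 5 * π * finRotate 5 * π * finRotate 5 * π * finRotate 5 * finRotate 5),
    π * π * (finRotate 5 * π * finRotate 5 * finRotate 5 * finRotate 5 * π * finRotate 5)],
    e * e * e * e * e = 1 ∧ e ≠ 1 := by decide +kernel

theorem rot5 : finRotate 5 ^ 5 = 1 ∧ finRotate 5 ≠ 1 ∧ (swap 0 1 : S5) * swap 0 1 = 1 ∧ (swap 0 1 : S5) ≠ 1 ∧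
    swap 0 1 * finRotate 5 * swap 0 1 * finRotate 5 * swap 0 1 * finRotate 5 * swap 0 1 * finRotate 5 = 1 ∧
    swap 0 1 * finRotate 5 * swap 0 1 * finRotate 5 ≠ 1 := by decide +kernel

theorem pow5 {S : Type*} [Group S] (d : S) : d ^ 5 = d * d * d * d * d := by
  simp only [pow_succ, pow_zero, one_mul]

theorem conj5' (d : S5) (h1 : d ^ 5 = 1) (h2 : d ≠ 1) : ∃ g : S5, d = g * finRotate 5 * g⁻¹ := by
  obtain ⟨g, hg⟩ := conj5 d (pow5 d ▸ h1) h2
  exact ⟨g, eq_mul_inv_iff_mul_eq.2 hg⟩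

theorem mod5 : Mod S5 5 where
  prime := Nat.prime_five
  odd := by decide
  fin := inferInstance
  sq := by
    rw [Nat.card_eq_fintype_card, Fintype.card_perm, Fintype.card_fin]
    decide
  inn := inn_of (gen_rot 3) (P := fun d => d ^ 5 = 1 ∧ d ≠ 1)
    (Q := fun c a => a * a = 1 ∧ a ≠ 1 ∧ a * c * a * c * a * c * a * c = 1 ∧ a * c * a * c ≠ 1)
    (fun α hα => ⟨by rw [← map_pow, rot5.1, map_one], fun h => rot5.2.1 (hα (h.trans (map_one α).symm))⟩)
    (fun α hα => ⟨by rw [← map_mul, rot5.2.2.1, map_one], fun h => rot5.2.2.2.1 (hα (h.trans (map_one α).symm)),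
      by simp only [← map_mul]; rw [rot5.2.2.2.2.1, map_one],
      fun h => rot5.2.2.2.2.2 (hα (by simp only [map_mul, map_one]; exact h))⟩)
    (fun d h => conj5' d h.1 h.2)
    (fun a h => by
      obtain ⟨g, h1, h2⟩ := aut5 a h.1 h.2.1 h.2.2.1 h.2.2.2
      exact ⟨g, eq_mul_inv_iff_mul_eq.2 h1, eq_mul_inv_iff_mul_eq.2 h2⟩)
  cent := fun c π h1 h2 h3 => by
    obtain ⟨g, rfl⟩ := conj5' c h1 h2
    obtain ⟨i, -, hi⟩ := cent5 (g⁻¹ * π * g) (by
      calc finRotate 5 * (g⁻¹ * π * g) = g⁻¹ * (g * finRotate 5 * g⁻¹ * π) * g := by group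
        _ = g⁻¹ * π * g * finRotate 5 := by rw [h3]; group)
    refine ⟨i, ?_⟩
    show (g * finRotate 5 * g⁻¹) ^ (i : ℤ) = π
    rw [conj_zpow, zpow_natCast, ← hi]
    group

/-- a nontrivial subgroup of `S₅` normalised by an element of order 5 has order divisible by 5 -/
theorem five {T : Subgroup S5} {c : S5} (h1 : c ^ 5 = 1) (h2 : c ≠ 1) (hT : ∀ π ∈ T, c * π * c⁻¹ ∈ T) {π : S5}
    (hπ : π ∈ T) (h3 : π ≠ 1) : ∃ e ∈ T, e ^ 5 = 1 ∧ e ≠ 1 := by
  obtain ⟨g, hg⟩ := conj5' c h1 h2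
  have hc : finRotate 5 = g⁻¹ * c * g := by rw [hg]; group
  obtain ⟨e, he, h4, h5⟩ := five0 (g⁻¹ * π * g) (fun h => h3 (by
    calc π = g * (g⁻¹ * π * g) * g⁻¹ := by group
      _ = 1 := by rw [h]; group))
  refine ⟨g * e * g⁻¹, ?_, by rw [conj_pow, pow5, h4]; group, fun h => h5 (by
    calc e = g⁻¹ * (g * e * g⁻¹) * g := by group
      _ = 1 := by rw [h]; group)⟩
  have t1 := hT _ hπ
  have t2 := hT _ t1
  have t3 := hT _ t2
  have t4 := hT _ t3
  have h6 : c * c * c * c * c = 1 := pow5 c ▸ h1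
  simp only [List.mem_cons, List.not_mem_nil, or_false] at he
  rcases he with rfl | rfl
  · have h7 := mul_mem (mul_mem (mul_mem hπ t1) t2) t3
    convert h7 using 1
    rw [hc]
    calc _ = π * (c * π * c⁻¹) * (c * (c * π * c⁻¹) * c⁻¹) * (c * (c * (c * π * c⁻¹) * c⁻¹) * c⁻¹) *
          (c * c * c * c * c) := by simp only [mul_assoc, inv_mul_cancel_left, mul_inv_cancel_left, mul_inv_cancel, mul_one]
      _ = _ := by rw [h6, mul_one]
  · have h7 := mul_mem (mul_mem (mul_mem hπ hπ) t1) t4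
    convert h7 using 1
    rw [hc]
    calc _ = π * π * (c * π * c⁻¹) * (c * (c * (c * (c * π * c⁻¹) * c⁻¹) * c⁻¹) * c⁻¹) *
          (c * c * c * c * c) := by simp only [mul_assoc, inv_mul_cancel_left, mul_inv_cancel_left, mul_inv_cancel, mul_one]
      _ = _ := by rw [h6, mul_one]

/-! ### `S₄` -/

abbrev S4 : Type := Perm (Fin 4)

theorem conj4 : ∀ d : S4, d * d * d * d = 1 → d * d ≠ 1 → ∃ g : S4, d * g = g * finRotate 4 := by decide +kernel

theorem aut4 : ∀ a : S4, a * a = 1 → a * finRotate 4 * a * finRotate 4 * a * finRotate 4 = 1 →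
    ∃ g : S4, finRotate 4 * g = g * finRotate 4 ∧ a * g = g * swap 0 1 := by decide +kernel

theorem cent4 : ∀ c π : S4, c * c * c = 1 → c ≠ 1 → c * π = π * c → ∃ i < 3, π = c ^ i := by decide +kernel

set_option synthInstance.maxSize 2000 in
theorem four0 : ∀ c : S4, c * c * c = 1 → c ≠ 1 → ∀ b : S4, b * b = 1 → c * b ≠ b * c →
    b * (c * b * c⁻¹) = c * b * c⁻¹ * b → ∀ π : S4, π ≠ 1 →
    ∃ e ∈ [π, c * π * c⁻¹, π * (c * π * c⁻¹)], (e * e * e = 1 ∧ e ≠ 1) ∨ e = b := by decide +kernel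

theorem rot4 : finRotate 4 * finRotate 4 * finRotate 4 * finRotate 4 = 1 ∧ finRotate 4 * finRotate 4 ≠ 1 ∧
    (swap 0 1 : S4) * swap 0 1 = 1 ∧ swap 0 1 * finRotate 4 * swap 0 1 * finRotate 4 * swap 0 1 * finRotate 4 = 1 := by
  decide +kernel

theorem pow3 {S : Type*} [Group S] (d : S) : d ^ 3 = d * d * d := by
  simp only [pow_succ, pow_zero, one_mul]

theorem mod4 : Mod S4 3 where
  prime := Nat.prime_three
  odd := by decide
  fin := inferInstance
  sq := by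
    rw [Nat.card_eq_fintype_card, Fintype.card_perm, Fintype.card_fin]
    decide
  inn := inn_of (gen_rot 2) (P := fun d => d * d * d * d = 1 ∧ d * d ≠ 1)
    (Q := fun c a => a * a = 1 ∧ a * c * a * c * a * c = 1)
    (fun α hα => ⟨by simp only [← map_mul]; rw [rot4.1, map_one],
      fun h => rot4.2.1 (hα (by simp only [map_mul, map_one]; exact h))⟩)
    (fun α hα => ⟨by rw [← map_mul, rot4.2.2.1, map_one], by simp only [← map_mul]; rw [rot4.2.2.2, map_one]⟩)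
    (fun d h => by
      obtain ⟨g, hg⟩ := conj4 d h.1 h.2
      exact ⟨g, eq_mul_inv_iff_mul_eq.2 hg⟩)
    (fun a h => by
      obtain ⟨g, h1, h2⟩ := aut4 a h.1 h.2
      exact ⟨g, eq_mul_inv_iff_mul_eq.2 h1, eq_mul_inv_iff_mul_eq.2 h2⟩)
  cent := fun c π h1 h2 h3 => by
    obtain ⟨i, -, hi⟩ := cent4 c π (pow3 c ▸ h1) h2 h3
    exact ⟨i, by rw [hi]; exact zpow_natCast c i⟩

/-- a nontrivial subgroup of `S₄` normalised by an element of order 3 -/
theorem four {T : Subgroup S4} {c b : S4} (h1 : c ^ 3 = 1) (h2 : c ≠ 1) (hb1 : b * b = 1) (hb2 : c * b ≠ b * c)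
    (hb3 : b * (c * b * c⁻¹) = c * b * c⁻¹ * b) (hT : ∀ π ∈ T, c * π * c⁻¹ ∈ T) {π : S4}
    (hπ : π ∈ T) (h3 : π ≠ 1) : (∃ e ∈ T, e ^ 3 = 1 ∧ e ≠ 1) ∨ b ∈ T := by
  obtain ⟨e, he, h4⟩ := four0 c (pow3 c ▸ h1) h2 b hb1 hb2 hb3 π h3
  have h5 : e ∈ T := by
    simp only [List.mem_cons, List.not_mem_nil, or_false] at he
    rcases he with rfl | rfl | rfl
    exacts [hπ, hT _ hπ, mul_mem hπ (hT _ hπ)]
  rcases h4 with h4 | rfl
  · exact Or.inl ⟨e, h5, pow3 e ▸ h4.1, h4.2⟩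
  · exact Or.inr h5

end Cfsg.Agent.BMx.Prim
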